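import Cfsg.Agent.SLComm.Two.Hess
import Cfsg.Agent.SLComm.Two.Cert
import Cfsg.Agent.SLComm.Scalar

/-!
The elementary blocks over the field with two elements are commutators.
-/

set_option autoImplicit false

namespace Cfsg.Agent.SLComm

open Matrix Polynomial

local notation "𝔽" => ZMod 2

/-- The matrix of the root of `f`. -/
noncomputable abbrev rootMat {f : 𝔽[X]} (hf : f.Monic) :
    Matrix (Fin (AdjoinRoot.powerBasis' hf).dim) (Fin (AdjoinRoot.powerBasis' hf).dim) 𝔽 :=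
  Algebra.leftMulMatrix (AdjoinRoot.powerBasis' hf).basis (AdjoinRoot.root f)

theorem zmod2_eq_one : ∀ t : ZMod 2, t ≠ 0 → t = 1 := by decide

theorem det_one_of_isUnit {ι : Type*} [Fintype ι] [DecidableEq ι] {M : Matrix ι ι 𝔽}
    (h : IsUnit M) : M.det = 1 :=
  zmod2_eq_one _ ((isUnit_iff_isUnit_det M).1 h).ne_zero

theorem isUnit_root_sub {f : 𝔽[X]} {c : 𝔽} (h : f.eval c ≠ 0) :
    IsUnit (AdjoinRoot.root f - AdjoinRoot.of f c) := by
  obtain ⟨q, hq⟩ : X - C c ∣ f - C (f.eval c) := X_sub_C_dvd_sub_C_eval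
  rw [zmod2_eq_one _ h] at hq
  have h2 := congrArg (AdjoinRoot.mk f) hq
  simp only [map_sub, map_mul, AdjoinRoot.mk_self, AdjoinRoot.mk_X, AdjoinRoot.mk_C, map_one,
    zero_sub] at h2
  exact IsUnit.of_mul_eq_one (-(AdjoinRoot.mk f q)) (by rw [mul_neg, ← h2, neg_neg])

theorem isUnit_root {f : 𝔽[X]} (h : f.eval 0 ≠ 0) : IsUnit (AdjoinRoot.root f) := by
  simpa using isUnit_root_sub h

/-- Centralisers are trivial over two elements. -/
theorem centralizer_two (m : ℕ) {k : ℕ} (A : Matrix (Fin k) (Fin k) 𝔽) (t : 𝔽) (ht : t ≠ 0) :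
    ∃ (a : 𝔽) (Z : Matrix (Fin k) (Fin k) 𝔽), Z * A = A * Z ∧ a ^ m * Z.det = t :=
  ⟨1, 1, by simp, by simp [zmod2_eq_one t ht]⟩

theorem quarticTwo_facts : quarticTwo.det = 1 ∧ (quarticTwo - 1).det ≠ 0 := by
  refine ⟨det_one_of_isUnit ⟨⟨quarticTwo, !![1, 1, 0, 0; 0, 0, 1, 0; 0, 0, 0, 1; 1, 0, 0, 0],
    ?_, ?_⟩, rfl⟩, ?_⟩
  · rw [← mulB_eq]; decide
  · rw [← mulB_eq]; decide
  · exact ((isUnit_iff_isUnit_det _).1 ⟨⟨quarticTwo - 1,
      !![0, 1, 1, 1; 1, 1, 0, 0; 1, 1, 1, 0; 1, 1, 1, 1], by rw [← mulB_eq]; decide,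
      by rw [← mulB_eq]; decide⟩, rfl⟩).ne_zero

theorem cubicTwo_facts : cubicTwo.det = 1 ∧ (cubicTwo - 1).det ≠ 0 := by
  constructor <;> rw [det_fin_three] <;> decide

/-- A cyclic block of degree at least three. -/
theorem isComm_rootMat {f : 𝔽[X]} (hf : f.Monic) (hdeg : 3 ≤ f.natDegree) (h0 : f.eval 0 ≠ 0) :
    IsComm (rootMat hf) := by
  obtain ⟨h, hsim⟩ := exists_hess_form f hf (by omega)
  refine isComm_of_sim hsim ?_
  set k := (AdjoinRoot.powerBasis' hf).dim with hk'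
  have hk : 3 ≤ k := by rw [hk', AdjoinRoot.powerBasis'_dim]; exact hdeg
  obtain ⟨m, hm⟩ : ∃ m, m + 3 = k := ⟨k - 3, by omega⟩
  let e : Fin m ⊕ Fin 3 ≃ Fin k := finSumFinEquiv.trans (finCongr hm)
  set H : Matrix (Fin k) (Fin k) 𝔽 := Matrix.of fun i j => hessFun k h i j with hH
  have hHd : H.det = 1 := by
    rw [← det_eq_of_sim hsim]
    exact det_one_of_isUnit ((isUnit_root h0).map _)
  obtain ⟨d, hd, hrow⟩ := hess_fact m 3 (by norm_num) h (H.submatrix e e) (by
    rintro (x | x) (y | y) <;> simp [H, e, hm])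
  rw [det_submatrix_equiv_self, hHd] at hd
  have h10 : d.tail 1 0 = 1 := by
    rw [hrow 1 0 (by simp)]
    simp only [hessFun, Fin.val_one, Fin.val_zero, add_zero, show ¬ m + 1 = m + 3 by omega,
      if_false]
    rcases m with _ | _ | m <;> simp
  have h20 : d.tail 2 0 = 0 := by
    rw [hrow 2 0 (by simp)]
    simp only [hessFun, Fin.val_two, Fin.val_zero, add_zero, show ¬ m + 1 = m + 3 by omega,
      if_false]
    rcases m with _ | _ | m <;> simp
  have h21 : d.tail 2 1 = 1 := by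
    rw [hrow 2 1 (by simp)]
    simp only [hessFun, Fin.val_two, Fin.val_one, show ¬ m + 1 + 1 = m + 3 by omega, if_false]
    rcases m with _ | m <;> simp
  have hform : d.tail = formA (d.tail 0 0) (d.tail 0 1) (d.tail 0 2) (d.tail 1 1) (d.tail 1 2)
      (d.tail 2 2) := by
    ext i j
    fin_cases i <;> fin_cases j <;> simp [formA, h10, h20, h21]
  have hdA : detA (formA (d.tail 0 0) (d.tail 0 1) (d.tail 0 2) (d.tail 1 1) (d.tail 1 2)
      (d.tail 2 2)) = 1 := by
    rw [← hform, ← hd, det_fin_three]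
    rfl
  obtain ⟨C, hC, hC'⟩ := formA_ok _ _ _ _ _ _ hdA
  have htail : TailOK cubicTwo d.tail := by
    refine ⟨C, sim_of_isCubA (witA_cubic C hC), ?_⟩
    rw [← mulA_eq, hform]
    exact sim_of_isCubA hC'
  have := assemble d cubicTwo cubicTwo_facts.1 cubicTwo_facts.2
    (fun t ht => centralizer_two m _ t ht) htail
  have h2 := isComm_reindex e this
  rw [reindex_apply, submatrix_submatrix] at h2
  simpa using h2

/-- A transvection block next to a cyclic block. -/
theorem isComm_rootMat_transvection {f : 𝔽[X]} (hf : f.Monic) (hdeg : 2 ≤ f.natDegree)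
    (h0 : f.eval 0 ≠ 0) :
    IsComm (fromBlocks (rootMat hf) 0 0 (!![1, 1; 0, 1] : Matrix (Fin 2) (Fin 2) 𝔽)) := by
  obtain ⟨h, hsim⟩ := exists_hess_form f hf hdeg
  refine isComm_of_sim (sim_fromBlocks hsim (sim_refl _)) ?_
  set k := (AdjoinRoot.powerBasis' hf).dim with hk'
  have hk : 2 ≤ k := by rw [hk', AdjoinRoot.powerBasis'_dim]; exact hdeg
  obtain ⟨m, hm⟩ : ∃ m, m + 2 = k := ⟨k - 2, by omega⟩
  let e : Fin m ⊕ Fin 2 ≃ Fin k := finSumFinEquiv.trans (finCongr hm)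
  set H : Matrix (Fin k) (Fin k) 𝔽 := Matrix.of fun i j => hessFun k h i j with hH
  set J : Matrix (Fin 2) (Fin 2) 𝔽 := !![1, 1; 0, 1] with hJ
  have hHd : H.det = 1 := by
    rw [← det_eq_of_sim hsim]
    exact det_one_of_isUnit ((isUnit_root h0).map _)
  obtain ⟨d, hd, hrow⟩ := hess_fact m 2 le_rfl h (H.submatrix e e) (by
    rintro (x | x) (y | y) <;> simp [H, e, hm])
  rw [det_submatrix_equiv_self, hHd, det_fin_two] at hd
  have h10 : d.tail 1 0 = 1 := by
    rw [hrow 1 0 (by simp)]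
    simp only [hessFun, Fin.val_one, Fin.val_zero, add_zero, show ¬ m + 1 = m + 2 by omega,
      if_false]
    rcases m with _ | _ | m <;> simp
  rw [h10, mul_one, CharTwo.sub_eq_add] at hd
  let σ : Fin 4 ≃ Fin 2 ⊕ Fin 2 := (finSumFinEquiv (m := 2) (n := 2)).symm
  let eG : Fin m ⊕ Fin 4 ≃ (Fin m ⊕ Fin 2) ⊕ Fin 2 :=
    (Equiv.sumCongr (Equiv.refl _) σ).trans (Equiv.sumAssoc _ _ _).symm
  obtain ⟨P, hP, hPeq⟩ := d.sim
  let d4 : Fact m 4 ((fromBlocks (H.submatrix e e) 0 0 J).submatrix eG eG) :=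
    { Lm := d.Lm, Um := d.Um
      R := (fromRows d.R 0).submatrix σ id
      R' := (fromCols d.R' 0).submatrix id σ
      tail := (fromBlocks d.tail 0 0 J).submatrix σ σ
      low := d.low, up := d.up, lowAdj := d.lowAdj, upAdj := d.upAdj
      sim := by
        have e1 : fromBlocks d.Lm 0 ((fromRows d.R 0).submatrix σ id)
            ((fromBlocks d.tail 0 0 J).submatrix σ σ) =
            (fromBlocks (fromBlocks d.Lm 0 d.R d.tail) 0 0 J).submatrix eG eG := by
          ext (i | i) (j | j)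
          · simp [eG]
          · rcases hj : σ j with b | b <;> simp [eG, hj]
          · rcases hi : σ i with a | a <;> simp [eG, hi]
          · rcases hi : σ i with a | a <;> rcases hj : σ j with b | b <;> simp [eG, hi, hj]
        have e2 : fromBlocks d.Um ((fromCols d.R' 0).submatrix id σ) 0 1 =
            (fromBlocks (fromBlocks d.Um d.R' 0 1) 0 0 (1 : Matrix (Fin 2) (Fin 2) 𝔽)).submatrix
              eG eG := by
          ext (i | i) (j | j)
          · simp [eG]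
          · rcases hj : σ j with b | b <;> simp [eG, hj]
          · rcases hi : σ i with a | a <;> simp [eG, hi]
          · rcases hi : σ i with a | a <;> rcases hj : σ j with b | b <;>
              simp [eG, hi, hj, Matrix.one_apply, ← σ.injective.eq_iff]
        rw [e1, e2, submatrix_mul_equiv, fromBlocks_multiply]
        simp only [Matrix.mul_zero, Matrix.zero_mul, add_zero, zero_add, Matrix.mul_one]
        have h2 : Sim (fromBlocks (H.submatrix e e) 0 0 J)
            (fromBlocks (fromBlocks d.Lm 0 d.R d.tail * fromBlocks d.Um d.R' 0 1) 0 0 J) :=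
          sim_fromBlocks ⟨P, hP, hPeq⟩ (sim_refl _)
        exact sim_reindex eG.symm h2 }
  have htail : TailOK quarticTwo d4.tail := by
    have hform : d4.tail = formB (d.tail 0 0) (d.tail 0 1) (d.tail 1 1) := by
      ext i j
      fin_cases i <;> fin_cases j <;>
        simp [d4, σ, formB, h10, J, finSumFinEquiv, Fin.addCases]
    rw [hform]
    exact tailOK_formB _ _ _ hd
  have := assemble d4 quarticTwo quarticTwo_facts.1 quarticTwo_facts.2
    (fun t ht => centralizer_two m _ t ht) htail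
  have h2 := isComm_reindex (eG.trans (Equiv.sumCongr e (Equiv.refl (Fin 2)))) this
  rw [reindex_apply, submatrix_submatrix] at h2
  convert h2 using 1
  ext (i | i) (j | j) <;> simp [eG]

/-- The irreducible quadratic block. -/
theorem isComm_omega : IsComm (!![0, 1; 1, 1] : Matrix (Fin 2) (Fin 2) 𝔽) := by
  refine ⟨!![1, 0; 1, 1], !![1, 1; 0, 1], by simp, by simp, ?_⟩
  ext i j
  fin_cases i <;> fin_cases j <;> simp [Matrix.mul_apply, Fin.sum_univ_two] <;> decide

/-- A sum of at least two transvection blocks. -/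
theorem isComm_transvection_sum {a : ℕ} (ha : 2 ≤ a) :
    IsComm (fromBlocks 1 1 0 1 : Matrix (Fin a ⊕ Fin a) (Fin a ⊕ Fin a) 𝔽) := by
  set f : 𝔽[X] := X ^ a + (X + 1) with hfdef
  have hlow : (X + 1 : 𝔽[X]).degree < a := by
    rw [← map_one (C : 𝔽 →+* 𝔽[X]), degree_X_add_C]
    exact_mod_cast ha
  have hf : f.Monic := monic_X_pow_add hlow
  have hdeg : f.natDegree = a := by
    apply natDegree_eq_of_degree_eq_some
    rw [hfdef, degree_add_eq_left_of_degree_lt (by rw [degree_X_pow]; exact hlow), degree_X_pow]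
  have hdim : (AdjoinRoot.powerBasis' hf).dim = a := by rw [AdjoinRoot.powerBasis'_dim, hdeg]
  have h0 : f.eval 0 ≠ 0 := by simp [hfdef, show a ≠ 0 by omega]
  have h1 : f.eval 1 ≠ 0 := by simp [hfdef]; decide
  set r := AdjoinRoot.root f with hr
  obtain ⟨u, hu⟩ := isUnit_root h0
  have hu2 : IsUnit (r * r - 1) := by
    have h2 := isUnit_root_sub h1
    rw [map_one, ← hr] at h2
    haveI : CharP (AdjoinRoot f) 2 := by
      haveI : Nontrivial (AdjoinRoot f) := AdjoinRoot.nontrivial f (by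
        rw [degree_eq_natDegree hf.ne_zero, hdeg]
        exact_mod_cast (show a ≠ 0 by omega))
      exact (RingHom.charP_iff_charP (AdjoinRoot.of f) 2).1 inferInstance
    rw [show r * r - 1 = (r - 1) * (r - 1) by
      linear_combination (2 : AdjoinRoot f) * 0 + (r - 1) * (CharTwo.add_self_eq_zero (1 : AdjoinRoot f))]
    exact h2.mul h2
  obtain ⟨v, hv⟩ := hu2
  let φ : AdjoinRoot f →ₐ[𝔽] Matrix (Fin a) (Fin a) 𝔽 :=
    (reindexAlgEquiv 𝔽 𝔽 (finCongr hdim)).toAlgHom.comp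
      (Algebra.leftMulMatrix (AdjoinRoot.powerBasis' hf).basis)
  have hid : r * (↑v⁻¹ : AdjoinRoot f) * r = ↑v⁻¹ + 1 := by
    have : (v : AdjoinRoot f) * ↑v⁻¹ = 1 := v.mul_inv
    rw [hv] at this
    linear_combination this
  rw [← hr] at hu
  have hinv : φ ↑u⁻¹ * φ r = 1 := by rw [← map_mul, ← hu, u.inv_mul, map_one]
  have hdetu : ∀ x : (AdjoinRoot f)ˣ, (φ x).det = 1 := fun x => det_one_of_isUnit (x.isUnit.map φ)
  refine ⟨fromBlocks (φ r) 0 0 (φ ↑u⁻¹), fromBlocks 1 (φ ↑v⁻¹) 0 1, ?_, ?_, ?_⟩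
  · rw [det_fromBlocks_zero₂₁, ← hu, hdetu, hdetu, mul_one]
  · simp [det_fromBlocks_zero₂₁]
  · simp only [fromBlocks_multiply, Matrix.one_mul, Matrix.mul_zero, add_zero, zero_add,
      Matrix.zero_mul, Matrix.mul_one]
    congr 1
    have e : φ ↑v⁻¹ + 1 = φ r * φ ↑v⁻¹ * φ r := by
      rw [← map_mul, ← map_mul, hid, map_add, map_one]
    calc φ ↑v⁻¹ * φ ↑u⁻¹ + φ ↑u⁻¹ = (φ ↑v⁻¹ + 1) * φ ↑u⁻¹ := by
          rw [Matrix.add_mul, Matrix.one_mul]
      _ = φ r * φ ↑v⁻¹ * (φ r * φ ↑u⁻¹) := by rw [e]; simp only [Matrix.mul_assoc]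
      _ = φ r * φ ↑v⁻¹ := by rw [mul_eq_one_comm.1 hinv, Matrix.mul_one]

end Cfsg.Agent.SLComm
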