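import Cfsg.Agent.SLComm.Two.Blocks
import Cfsg.Agent.SLComm.Odd

/-!
Every matrix of determinant one and size at least three over the field with two elements is a
commutator.
-/

set_option autoImplicit false

namespace Cfsg.Agent.SLComm

open Matrix Polynomial Module DirectSum

local notation "𝔽" => ZMod 2

/-- Rational canonical form over two elements. -/
theorem exists_blocks {n : ℕ} (g : Matrix (Fin n) (Fin n) 𝔽) (hg : g.det = 1) :
    ∃ (ι : Type) (_ : Fintype ι) (_ : DecidableEq ι) (f : ι → 𝔽[X]) (hf : ∀ i, (f i).Monic)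
      (ε : (Σ i, Fin (AdjoinRoot.powerBasis' (hf i)).dim) ≃ Fin n),
      (∀ i, IsUnit (AdjoinRoot.root (f i))) ∧
        Sim g (reindex ε ε (blockDiagonal' fun i => rootMat (hf i))) := by
  classical
  set φ : (Fin n → 𝔽) →ₗ[𝔽] (Fin n → 𝔽) := Matrix.toLin' g with hφ
  obtain ⟨ι, hι, p, hp, e, ⟨E0⟩⟩ := Module.equiv_directSum_of_isTorsion
    (Module.AEval.isTorsion_of_finiteDimensional 𝔽 (Fin n → 𝔽) φ)
  let f : ι → 𝔽[X] := fun i => p i ^ e i
  have hf : ∀ i, (f i).Monic := fun i =>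
    zmod2_eq_one _ (leadingCoeff_ne_zero.2 (pow_ne_zero _ (hp i).ne_zero))
  let E : Module.AEval' φ ≃ₗ[𝔽[X]] (∀ i, 𝔽[X] ⧸ 𝔽[X] ∙ p i ^ e i) :=
    E0.trans (DirectSum.linearEquivFunOnFintype 𝔽[X] ι fun i => 𝔽[X] ⧸ 𝔽[X] ∙ p i ^ e i)
  let Ladd : (Fin n → 𝔽) ≃+ (∀ i, AdjoinRoot (f i)) :=
    (Module.AEval'.of φ).toAddEquiv.trans E.toAddEquiv
  let L : (Fin n → 𝔽) ≃ₗ[𝔽] (∀ i, AdjoinRoot (f i)) :=
    { Ladd with map_smul' := fun c x => ZMod.map_smul Ladd c x }
  have hL : ∀ x i, L (g *ᵥ x) i = AdjoinRoot.root (f i) * L x i := by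
    intro x i
    have h1 : (X : 𝔽[X]) • Module.AEval'.of φ x = Module.AEval'.of φ (g *ᵥ x) := by
      rw [Module.AEval'.X_smul_of, hφ, Matrix.toLin'_apply]
    change E (Module.AEval'.of φ (g *ᵥ x)) i = _
    rw [← h1, map_smul, Pi.smul_apply]
    have key : ∀ y : AdjoinRoot (f i),
        @id (AdjoinRoot (f i)) ((X : 𝔽[X]) • @id (𝔽[X] ⧸ 𝔽[X] ∙ p i ^ e i) y) =
          AdjoinRoot.root (f i) * y := by
      intro y
      obtain ⟨r, rfl⟩ := AdjoinRoot.mk_surjective y
      rfl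
    exact key (L x i)
  let B : Basis (Σ i, Fin (AdjoinRoot.powerBasis' (hf i)).dim) 𝔽 (Fin n → 𝔽) :=
    (Pi.basis fun i => (AdjoinRoot.powerBasis' (hf i)).basis).map L.symm
  let ε : (Σ i, Fin (AdjoinRoot.powerBasis' (hf i)).dim) ≃ Fin n :=
    Fintype.equivOfCardEq (by
      rw [← finrank_eq_card_basis B, finrank_fintype_fun_eq_card])
  refine ⟨ι, hι, inferInstance, f, hf, ε, ?_, ?_⟩
  · intro i
    have hgu : IsUnit g.det := by rw [hg]; exact isUnit_one
    have h2 := hL (g⁻¹ *ᵥ L.symm (Pi.single i 1)) i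
    rw [mulVec_mulVec, mul_nonsing_inv g hgu, one_mulVec, L.apply_symm_apply,
      Pi.single_eq_same] at h2
    exact IsUnit.of_mul_eq_one _ h2.symm
  · let B' := B.reindex ε
    let S := Pi.basisFun 𝔽 (Fin n)
    have hD : LinearMap.toMatrix B' B' φ =
        reindex ε ε (blockDiagonal' fun i => rootMat (hf i)) := by
      have h0 : ∀ x y, LinearMap.toMatrix B B φ x y =
          blockDiagonal' (fun i => rootMat (hf i)) x y := by
        rintro ⟨i, a⟩ ⟨j, b⟩
        rw [LinearMap.toMatrix_apply, hφ, Matrix.toLin'_apply]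
        simp only [B, Basis.map_repr, Basis.map_apply, LinearEquiv.trans_apply,
          LinearEquiv.symm_symm, Pi.basis_repr, hL, L.apply_symm_apply, Pi.basis_apply]
        by_cases hij : i = j
        · subst hij
          rw [Pi.single_eq_same, blockDiagonal'_apply_eq]
          exact (Algebra.leftMulMatrix_eq_repr_mul _ _ _ _).symm
        · rw [Pi.single_eq_of_ne hij, mul_zero, map_zero, blockDiagonal'_apply_ne _ _ _ hij]
          rfl
      ext x y
      rw [LinearMap.toMatrix_apply, reindex_apply, submatrix_apply, ← h0,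
        LinearMap.toMatrix_apply]
      simp [B']
    refine ⟨S.toMatrix B', isUnit_det_of_right_inverse (S.toMatrix_mul_toMatrix_flip B'), ?_⟩
    have hS : LinearMap.toMatrix S S φ = g := by
      rw [LinearMap.toMatrix_eq_toMatrix', hφ, LinearMap.toMatrix'_toLin']
    rw [← hD]
    conv_lhs => rw [← hS]
    rw [linearMap_toMatrix_mul_basis_toMatrix, basis_toMatrix_mul_linearMap_toMatrix]

section

variable {ι : Type*} [Fintype ι] [DecidableEq ι] {d : ι → ℕ}

theorem isUnit_blockDiagonal' {M : ∀ i, Matrix (Fin (d i)) (Fin (d i)) 𝔽}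
    (h : ∀ i, IsUnit (M i)) : IsUnit (blockDiagonal' M) :=
  (Pi.isUnit_iff.2 h).map (blockDiagonal'RingHom (fun i => Fin (d i)) 𝔽)

theorem isComm_blockDiagonal' {M : ∀ i, Matrix (Fin (d i)) (Fin (d i)) 𝔽}
    (h : ∀ i, IsComm (M i)) : IsComm (blockDiagonal' M) := by
  choose a b ha hb hab using h
  refine ⟨blockDiagonal' a, blockDiagonal' b, det_one_of_isUnit (isUnit_blockDiagonal' fun i => ?_),
    det_one_of_isUnit (isUnit_blockDiagonal' fun i => ?_), ?_⟩
  · rw [isUnit_iff_isUnit_det, ha i]; exact isUnit_one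
  · rw [isUnit_iff_isUnit_det, hb i]; exact isUnit_one
  · rw [← blockDiagonal'_mul, ← blockDiagonal'_mul, ← blockDiagonal'_mul]
    exact congrArg blockDiagonal' (funext hab)

theorem sim_blockDiagonal' {M N : ∀ i, Matrix (Fin (d i)) (Fin (d i)) 𝔽}
    (h : ∀ i, Sim (M i) (N i)) : Sim (blockDiagonal' M) (blockDiagonal' N) := by
  choose P hP hPe using h
  refine ⟨blockDiagonal' P, (isUnit_iff_isUnit_det _).1
    (isUnit_blockDiagonal' fun i => (isUnit_iff_isUnit_det _).2 (hP i)), ?_⟩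
  rw [← blockDiagonal'_mul, ← blockDiagonal'_mul]
  exact congrArg blockDiagonal' (funext hPe)

/-- Regrouping the blocks along a predicate. -/
theorem isComm_split (M : ∀ i, Matrix (Fin (d i)) (Fin (d i)) 𝔽) (q : ι → Prop) [DecidablePred q]
    (h1 : IsComm (blockDiagonal' fun i : {i // q i} => M i.1))
    (h2 : IsComm (blockDiagonal' fun i : {i // ¬ q i} => M i.1)) :
    IsComm (blockDiagonal' M) := by
  let F : (Σ i : {i // q i}, Fin (d i.1)) ⊕ (Σ i : {i // ¬ q i}, Fin (d i.1)) → Σ i, Fin (d i) :=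
    Sum.elim (fun x => ⟨x.1.1, x.2⟩) (fun x => ⟨x.1.1, x.2⟩)
  have hF : Function.Bijective F := by
    refine ⟨?_, ?_⟩
    · rintro (⟨⟨i, hi⟩, a⟩ | ⟨⟨i, hi⟩, a⟩) (⟨⟨j, hj⟩, b⟩ | ⟨⟨j, hj⟩, b⟩) h <;>
        simp only [F, Sum.elim_inl, Sum.elim_inr, Sigma.mk.injEq] at h <;>
        obtain ⟨rfl, h⟩ := h <;> first
          | (obtain rfl := eq_of_heq h; rfl)
          | exact absurd hi hj
          | exact absurd hj hi
    · rintro ⟨i, a⟩
      by_cases hi : q i
      · exact ⟨Sum.inl ⟨⟨i, hi⟩, a⟩, rfl⟩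
      · exact ⟨Sum.inr ⟨⟨i, hi⟩, a⟩, rfl⟩
  have h3 := isComm_reindex (Equiv.ofBijective F hF) (isComm_fromBlocks h1 h2)
  convert h3 using 1
  apply (reindex (Equiv.ofBijective F hF) (Equiv.ofBijective F hF)).symm.injective
  rw [Equiv.symm_apply_apply]
  ext (⟨⟨i, hi⟩, a⟩ | ⟨⟨i, hi⟩, a⟩) (⟨⟨j, hj⟩, b⟩ | ⟨⟨j, hj⟩, b⟩)
  all_goals simp only [reindex_symm, reindex_apply, submatrix_apply, Equiv.symm_symm,
    Equiv.ofBijective_apply, F, Sum.elim_inl, Sum.elim_inr, fromBlocks_apply₁₁, fromBlocks_apply₁₂,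
    fromBlocks_apply₂₁, fromBlocks_apply₂₂, Matrix.zero_apply]
  all_goals by_cases hij : i = j
  all_goals first
    | (subst hij; first
        | exact absurd hi hj
        | exact absurd hj hi
        | rw [blockDiagonal'_apply_eq, blockDiagonal'_apply_eq])
    | rw [blockDiagonal'_apply_ne _ _ _ hij]
  all_goals rw [blockDiagonal'_apply_ne _ _ _ (by simpa using hij)]

end

set_option synthInstance.maxSize 4096 in
set_option synthInstance.maxHeartbeats 200000 in
theorem two_cases_entries : ∀ a b c e : ZMod 2, a * e - b * c ≠ 0 →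
    (a = 1 ∧ b = 0 ∧ c = 0 ∧ e = 1) ∨
    (∃ p q r s : ZMod 2, p * s - q * r ≠ 0 ∧ a * p + b * r = q ∧ a * q + b * s = p + q ∧
      c * p + e * r = s ∧ c * q + e * s = r + s) ∨
    ((∃ p q r s : ZMod 2, p * s - q * r ≠ 0 ∧ a * p + b * r = p ∧ a * q + b * s = p + q ∧
      c * p + e * r = r ∧ c * q + e * s = r + s) ∧
      ∃ u v x y : ZMod 2, a = 1 + u * x ∧ b = u * y ∧ c = v * x ∧ e = 1 + v * y) := by decide

/-- The two-dimensional blocks which are not commutators. -/
theorem two_block (M : Matrix (Fin 2) (Fin 2) 𝔽) (hM : IsUnit M) (hn : ¬ IsComm M) :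
    Sim M !![1, 1; 0, 1] ∧ ∃ u ψ : Fin 2 → 𝔽, M = 1 + vecMulVec u ψ := by
  have hd : M.det ≠ 0 := ((isUnit_iff_isUnit_det M).1 hM).ne_zero
  rw [det_fin_two] at hd
  rcases two_cases_entries _ _ _ _ hd with ⟨h1, h2, h3, h4⟩ | ⟨p, q, r, s, hP, h1, h2, h3, h4⟩ |
    ⟨⟨p, q, r, s, hP, h1, h2, h3, h4⟩, u, v, x, y, k1, k2, k3, k4⟩
  · refine absurd ?_ hn
    rw [show M = 1 by ext i j; fin_cases i <;> fin_cases j <;> simp [h1, h2, h3, h4]]
    exact isComm_one
  · refine absurd (isComm_of_sim ⟨!![p, q; r, s], ?_, ?_⟩ isComm_omega) hn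
    · rw [det_fin_two]; exact isUnit_iff_ne_zero.2 (by simpa using hP)
    · ext i j
      fin_cases i <;> fin_cases j <;> simp [Matrix.mul_apply, Fin.sum_univ_two, h1, h2, h3, h4]
  · refine ⟨⟨!![p, q; r, s], ?_, ?_⟩, ![u, v], ![x, y], ?_⟩
    · rw [det_fin_two]; exact isUnit_iff_ne_zero.2 (by simpa using hP)
    · ext i j
      fin_cases i <;> fin_cases j <;> simp [Matrix.mul_apply, Fin.sum_univ_two, h1, h2, h3, h4]
    · ext i j
      fin_cases i <;> fin_cases j <;> simp [vecMulVec_apply, k1, k2, k3, k4]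

theorem isComm_all_two {ι : Type*} [Fintype ι] [DecidableEq ι] (hι : 2 ≤ Fintype.card ι)
    {d : ι → ℕ} (hd : ∀ i, d i = 2) (M : ∀ i, Matrix (Fin (d i)) (Fin (d i)) 𝔽)
    (hM : ∀ i, IsUnit (M i)) (hn : ∀ i, ¬ IsComm (M i)) : IsComm (blockDiagonal' M) := by
  obtain rfl : d = fun _ => 2 := funext hd
  refine isComm_of_sim (sim_blockDiagonal' (N := fun _ : ι => !![1, 1; 0, 1])
    fun i => (two_block (M i) (hM i) (hn i)).1) ?_
  let c : Fin (Fintype.card ι) ≃ ι := (Fintype.equivFin ι).symm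
  let F : Fin (Fintype.card ι) ⊕ Fin (Fintype.card ι) → Σ _ : ι, Fin 2 :=
    Sum.elim (fun x => ⟨c x, 0⟩) (fun x => ⟨c x, 1⟩)
  have hF : Function.Bijective F := by
    refine ⟨?_, ?_⟩
    · rintro (a | a) (b | b) h <;> simp [F] at h <;> simp [h]
    · rintro ⟨i, a⟩
      fin_cases a
      · exact ⟨Sum.inl (c.symm i), by simp [F]⟩
      · exact ⟨Sum.inr (c.symm i), by simp [F]⟩
  have h3 := isComm_reindex (Equiv.ofBijective F hF) (isComm_transvection_sum hι)
  convert h3 using 1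
  apply (reindex (Equiv.ofBijective F hF) (Equiv.ofBijective F hF)).symm.injective
  rw [Equiv.symm_apply_apply]
  ext (a | a) (b | b) <;>
    simp [F, blockDiagonal'_apply, Matrix.one_apply, c.injective.eq_iff] <;>
    split_ifs <;> simp_all

theorem isComm_pair {f : 𝔽[X]} (hf : f.Monic) (hdeg : 2 ≤ f.natDegree) (h0 : f.eval 0 ≠ 0)
    {d : ℕ} (hd : d = 2) (M : Matrix (Fin d) (Fin d) 𝔽) (hM : IsUnit M) (hn : ¬ IsComm M) :
    IsComm (fromBlocks (rootMat hf) 0 0 M) := by
  subst hd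
  exact isComm_of_sim (sim_fromBlocks (sim_refl _) (two_block M hM hn).1)
    (isComm_rootMat_transvection hf hdeg h0)

theorem isComm_two_blocks {ι : Type*} [Fintype ι] [DecidableEq ι] {d : ι → ℕ}
    (M : ∀ i, Matrix (Fin (d i)) (Fin (d i)) 𝔽) (i₁ i₀ : ι) (hne : i₁ ≠ i₀)
    (hpair : IsComm (fromBlocks (M i₁) 0 0 (M i₀))) :
    IsComm (blockDiagonal' fun i : {i // i = i₁ ∨ i = i₀} => M i.1) := by
  let F : Fin (d i₁) ⊕ Fin (d i₀) → Σ i : {i // i = i₁ ∨ i = i₀}, Fin (d i.1) :=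
    Sum.elim (fun x => ⟨⟨i₁, Or.inl rfl⟩, x⟩) (fun x => ⟨⟨i₀, Or.inr rfl⟩, x⟩)
  have hF : Function.Bijective F := by
    refine ⟨?_, ?_⟩
    · rintro (a | a) (b | b) h <;> simp only [F, Sum.elim_inl, Sum.elim_inr, Sigma.mk.injEq] at h
      · rw [eq_of_heq h.2]
      · exact absurd (congrArg Subtype.val h.1) hne
      · exact absurd (congrArg Subtype.val h.1).symm hne
      · rw [eq_of_heq h.2]
    · rintro ⟨⟨i, rfl | rfl⟩, a⟩
      · exact ⟨Sum.inl a, rfl⟩
      · exact ⟨Sum.inr a, rfl⟩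
  have h3 := isComm_reindex (Equiv.ofBijective F hF) hpair
  convert h3 using 1
  apply (reindex (Equiv.ofBijective F hF) (Equiv.ofBijective F hF)).symm.injective
  rw [Equiv.symm_apply_apply]
  ext (a | a) (b | b)
  all_goals simp only [reindex_symm, reindex_apply, submatrix_apply, Equiv.symm_symm,
    Equiv.ofBijective_apply, F, Sum.elim_inl, Sum.elim_inr, fromBlocks_apply₁₁, fromBlocks_apply₁₂,
    fromBlocks_apply₂₁, fromBlocks_apply₂₂, Matrix.zero_apply]
  all_goals first
    | rw [blockDiagonal'_apply_eq]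
    | rw [blockDiagonal'_apply_ne]
  all_goals simp [hne, hne.symm]

theorem rootMat_cases {f : 𝔽[X]} (hf : f.Monic) (hu : IsUnit (AdjoinRoot.root f))
    (hn : ¬ IsComm (rootMat hf)) : (AdjoinRoot.powerBasis' hf).dim = 2 := by
  have hdim : (AdjoinRoot.powerBasis' hf).dim = f.natDegree := AdjoinRoot.powerBasis'_dim hf
  by_contra h2
  apply hn
  rcases lt_or_gt_of_ne h2 with hlt | hgt
  · suffices rootMat hf = 1 by rw [this]; exact isComm_one
    ext i j
    have hij : i = j := by apply Fin.ext; omega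
    subst hij
    rw [Matrix.one_apply_eq]
    have hd := det_one_of_isUnit ((hu.map _ : IsUnit (rootMat hf)))
    have hsub : Subsingleton (Fin (AdjoinRoot.powerBasis' hf).dim) :=
      Fin.subsingleton_iff_le_one.2 (by omega)
    rwa [det_eq_elem_of_subsingleton _ i] at hd
  · exact isComm_rootMat hf (by omega) (eval_zero_ne_zero_of_isUnit hu)
where
  eval_zero_ne_zero_of_isUnit {f : 𝔽[X]} (hu : IsUnit (AdjoinRoot.root f)) : f.eval 0 ≠ 0 := by
    intro h0
    have h := hu.map (AdjoinRoot.lift (RingHom.id 𝔽) 0 (by simpa [eval₂_eq_eval_map] using h0))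
    simp at h

/-- The case of two elements. -/
theorem isComm_two {n : ℕ} (hn : 3 ≤ n) (g : Matrix (Fin n) (Fin n) 𝔽) (hg : g.det = 1) :
    IsComm g := by
  obtain ⟨ι, _, _, f, hf, ε, hu, hsim⟩ := exists_blocks g hg
  have hU : ∀ i, IsUnit (rootMat (hf i)) := fun i => (hu i).map _
  classical
  rcases Nat.lt_or_ge (Fintype.card {i // ¬ IsComm (rootMat (hf i))}) 2 with hc | hc
  · by_cases hall : ∀ i, IsComm (rootMat (hf i))
    · exact isComm_of_sim hsim (isComm_reindex ε (isComm_blockDiagonal' hall))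
    push_neg at hall
    obtain ⟨i₀, hi₀⟩ := hall
    have huniq : ∀ i, i ≠ i₀ → IsComm (rootMat (hf i)) := by
      intro i hi
      by_contra hcon
      have := Fintype.card_le_one_iff.1 (Nat.le_of_lt_succ hc) ⟨i, hcon⟩ ⟨i₀, hi₀⟩
      exact hi (congrArg Subtype.val this)
    have hd0 : (AdjoinRoot.powerBasis' (hf i₀)).dim = 2 := rootMat_cases (hf i₀) (hu i₀) hi₀
    by_cases hbig : ∃ i₁, i₁ ≠ i₀ ∧ 2 ≤ (f i₁).natDegree
    · obtain ⟨i₁, hne, hdeg⟩ := hbig
      refine isComm_of_sim hsim (isComm_reindex ε ?_)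
      refine isComm_split (fun i => rootMat (hf i)) (fun i => i = i₁ ∨ i = i₀) ?_ ?_
      · exact isComm_two_blocks (fun i => rootMat (hf i)) i₁ i₀ hne
          (isComm_pair (hf i₁) hdeg (rootMat_cases.eval_zero_ne_zero_of_isUnit (hu i₁)) hd0 _
            (hU i₀) hi₀)
      · exact isComm_blockDiagonal' fun i => huniq i.1 fun h => i.2 (Or.inr h)
    · push_neg at hbig
      have hone : ∀ i, i ≠ i₀ → rootMat (hf i) = 1 := by
        intro i hi
        have hlt := hbig i hi
        have hdim : (AdjoinRoot.powerBasis' (hf i)).dim = (f i).natDegree :=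
          AdjoinRoot.powerBasis'_dim (hf i)
        have hsub : Subsingleton (Fin (AdjoinRoot.powerBasis' (hf i)).dim) :=
          Fin.subsingleton_iff_le_one.2 (by omega)
        ext a b
        rw [Subsingleton.elim b a, Matrix.one_apply_eq]
        have hd := det_one_of_isUnit (hU i)
        rwa [det_eq_elem_of_subsingleton _ a] at hd
      obtain ⟨u, ψ, huψ⟩ : ∃ u ψ, rootMat (hf i₀) = 1 + vecMulVec u ψ := by
        have key : ∀ {d : ℕ}, d = 2 → ∀ M : Matrix (Fin d) (Fin d) 𝔽, IsUnit M → ¬ IsComm M →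
            ∃ u ψ, M = 1 + vecMulVec u ψ := by
          rintro d rfl M h1 h2
          exact (two_block M h1 h2).2
        exact key hd0 _ (hU i₀) hi₀
      refine isComm_of_sim hsim (isComm_rank_one hn _ ?_ ?_)
      · rw [← det_eq_of_sim hsim, hg]
      · let U : ∀ i, Fin (AdjoinRoot.powerBasis' (hf i)).dim → 𝔽 := Function.update 0 i₀ u
        let Ψ : ∀ i, Fin (AdjoinRoot.powerBasis' (hf i)).dim → 𝔽 := Function.update 0 i₀ ψ
        have e1 : (blockDiagonal' fun i => rootMat (hf i)) =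
            1 + vecMulVec (fun x => U x.1 x.2) (fun x => Ψ x.1 x.2) := by
          ext ⟨i, a⟩ ⟨j, b⟩
          by_cases hij : i = j
          · subst hij
            rw [blockDiagonal'_apply_eq]
            by_cases hi : i = i₀
            · subst hi
              simp [U, Ψ, huψ, vecMulVec_apply, Matrix.one_apply, Sigma.mk.injEq]
            · simp [U, Ψ, hone i hi, Function.update_of_ne hi, vecMulVec_apply, Matrix.one_apply,
                Sigma.mk.injEq]
          · rw [blockDiagonal'_apply_ne _ _ _ hij]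
            by_cases hi : i = i₀
            · subst hi
              simp [U, Ψ, Function.update_of_ne (Ne.symm hij), vecMulVec_apply, Matrix.one_apply,
                hij]
            · simp [U, Ψ, Function.update_of_ne hi, vecMulVec_apply, Matrix.one_apply, hij]
        have e2 : reindex ε ε (blockDiagonal' fun i => rootMat (hf i)) - 1 =
            vecMulVec ((fun x => U x.1 x.2) ∘ ε.symm) ((fun x => Ψ x.1 x.2) ∘ ε.symm) := by
          rw [e1]
          ext a b
          simp [vecMulVec_apply, Matrix.one_apply, ε.symm.injective.eq_iff]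
        change (reindex ε ε (blockDiagonal' fun i => rootMat (hf i)) - 1).rank ≤ 1
        rw [e2]
        exact rank_vecMulVec_le _ _
  · refine isComm_of_sim hsim (isComm_reindex ε ?_)
    refine isComm_split (fun i => rootMat (hf i)) (fun i => ¬ IsComm (rootMat (hf i))) ?_ ?_
    · exact isComm_all_two hc (fun i => rootMat_cases (hf i.1) (hu i.1) i.2) _ (fun i => hU i.1)
        (fun i => i.2)
    · exact isComm_blockDiagonal' fun i => not_not.1 i.2

end Cfsg.Agent.SLComm
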