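import Cfsg.Agent.SLComm.Assemble

/-!
Hessenberg forms of cyclic matrices over the field with two elements.
-/

set_option autoImplicit false

namespace Cfsg.Agent.SLComm

open Matrix Polynomial

local notation "𝔽" => ZMod 2

/-- The Hessenberg form with last column `h`. -/
def hessFun (K : ℕ) (h : ℕ → ZMod 2) (i j : ℕ) : ZMod 2 :=
  if j + 1 = K then h i
  else if j = 0 then (if i ≤ 1 then 1 else 0)
  else if j = 1 then (if i = 0 ∨ i = 2 then 1 else 0)
  else if i = 1 ∨ i = j + 1 then 1 else 0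

/-- Its upper factor. -/
def upFun (i j : ℕ) : ZMod 2 :=
  if i = j then 1 else if i < j ∧ (1 ≤ i ∨ j = 1) then 1 else 0

/-- Its lower factor. -/
def bidiag (m : ℕ) : Matrix (Fin m) (Fin m) (ZMod 2) :=
  fun i j => if i = j then 1 else if (j : ℕ) + 1 = i then 1 else 0

theorem bidiag_mul {m : ℕ} {κ : Type*} [Fintype κ] (X : Matrix (Fin m) κ 𝔽) (i : Fin m) (j : κ) :
    (bidiag m * X) i j = X i j +
      (if h : 0 < (i : ℕ) then X ⟨i - 1, by omega⟩ j else 0) := by
  rw [Matrix.mul_apply]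
  by_cases h : 0 < (i : ℕ)
  · rw [dif_pos h, Finset.sum_eq_add (a := i) (b := (⟨i - 1, by omega⟩ : Fin m))
      (fun e => by have := congrArg Fin.val e; simp at this; omega)]
    · have h1 : i ≠ (⟨i - 1, by omega⟩ : Fin m) := fun e => by
        have := congrArg Fin.val e; simp at this; omega
      simp [bidiag, h1, show (i : ℕ) - 1 + 1 = i by omega]
    · intro l _ hl
      have h2 : ¬ (l : ℕ) + 1 = i := fun e => hl.2 (Fin.ext (by simp; omega))
      simp [bidiag, Ne.symm hl.1, h2]
    · intro h; exact absurd (Finset.mem_univ _) h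
    · intro h; exact absurd (Finset.mem_univ _) h
  · rw [dif_neg h, Finset.sum_eq_single i]
    · simp [bidiag]
    · intro l _ hl
      have h2 : ¬ (l : ℕ) + 1 = i := by omega
      simp [bidiag, Ne.symm hl, h2]
    · intro h; exact absurd (Finset.mem_univ _) h

theorem upFun_eq (i j : ℕ) :
    upFun i j = if (j = 0 ∧ i = 0) ∨ (j = 1 ∧ i ≤ 1) ∨ (2 ≤ j ∧ 1 ≤ i ∧ i ≤ j) then 1 else 0 := by
  unfold upFun
  by_cases h1 : i = j
  · subst h1
    rw [if_pos rfl, if_pos (by omega)]
  · rw [if_neg h1]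
    by_cases h2 : i < j ∧ (1 ≤ i ∨ j = 1)
    · rw [if_pos h2, if_pos (by omega)]
    · rw [if_neg h2, if_neg (by omega)]

theorem upFun_add {K : ℕ} (h : ℕ → ZMod 2) {i j : ℕ} (hK : ¬ j + 1 = K) :
    upFun i j + (if 0 < i then upFun (i - 1) j else 0) = hessFun K h i j := by
  have h11 : (1 : ZMod 2) + 1 = 0 := rfl
  rw [upFun_eq i j, upFun_eq (i - 1) j]
  simp only [hessFun, if_neg hK]
  rcases j with _ | _ | j
  · rcases i with _ | _ | i <;> simp
  · rcases i with _ | _ | _ | i <;> simp [h11]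
  · rcases i with _ | _ | i
    · simp
    · simp
    · simp only [show ¬ j + 1 + 1 = 0 by omega, show ¬ j + 1 + 1 = 1 by omega, false_and, false_or,
        show 2 ≤ j + 1 + 1 by omega, true_and, if_false, show 0 < i + 1 + 1 by omega, if_true,
        show 1 ≤ i + 1 + 1 by omega, show i + 1 + 1 - 1 = i + 1 by omega,
        show 1 ≤ i + 1 by omega, show ¬ i + 1 + 1 = 1 by omega]
      by_cases a1 : i + 1 + 1 ≤ j + 1 + 1
      · rw [if_pos a1, if_pos (by omega), if_neg (by omega), h11]
      · rw [if_neg a1, zero_add]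
        by_cases a2 : i + 1 ≤ j + 1 + 1
        · rw [if_pos a2, if_pos (by omega)]
        · rw [if_neg a2, if_neg (by omega)]

theorem upFun_last {m j : ℕ} (hj : j < m) : upFun (m - 1) j = if j + 1 = m then 1 else 0 := by
  unfold upFun
  by_cases h : j + 1 = m
  · simp [show m - 1 = j by omega, h]
  · simp [show ¬ m - 1 = j by omega, show ¬ m - 1 < j by omega, h]

theorem hessFun_below {m K j a : ℕ} (h : ℕ → ZMod 2) (hj : j < m) (hK : ¬ j + 1 = K) :
    hessFun K h (m + a) j = if a = 0 ∧ j + 1 = m then 1 else 0 := by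
  simp only [hessFun, if_neg hK]
  rcases j with _ | _ | j
  · by_cases h0 : a = 0 ∧ 1 = m
    · obtain ⟨rfl, rfl⟩ := h0; simp
    · simp [h0, show ¬ m + a ≤ 1 by omega]
  · by_cases h0 : a = 0 ∧ 2 = m
    · obtain ⟨rfl, rfl⟩ := h0; simp
    · simp [h0, show ¬ (m + a = 0 ∨ m + a = 2) by omega, show ¬ (a = 0 ∧ 1 + 1 = m) from h0]
      omega
  · by_cases h0 : a = 0 ∧ j + 1 + 1 + 1 = m
    · obtain ⟨rfl, rfl⟩ := h0; simp
    · simp [h0, show ¬ (m + a = 1 ∨ m + a = j + 1 + 1 + 1) by omega]

theorem hess_fact (m s : ℕ) (hs : 2 ≤ s) (h : ℕ → ZMod 2)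
    (G : Matrix (Fin m ⊕ Fin s) (Fin m ⊕ Fin s) 𝔽)
    (hG : ∀ x y, G x y = hessFun (m + s) h (Sum.elim (fun i : Fin m => (i : ℕ)) (fun a : Fin s => m + (a : ℕ)) x)
      (Sum.elim (fun i : Fin m => (i : ℕ)) (fun a : Fin s => m + (a : ℕ)) y)) :
    ∃ d : Fact m s G, d.tail.det = G.det ∧
      ∀ a b : Fin s, 0 < (a : ℕ) → d.tail a b = hessFun (m + s) h (m + a) (m + b) := by
  let Um : Matrix (Fin m) (Fin m) 𝔽 := fun i j => upFun i j
  let R : Matrix (Fin s) (Fin m) 𝔽 := fun a l => if (a : ℕ) = 0 ∧ (l : ℕ) + 1 = m then 1 else 0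
  let R' : Matrix (Fin m) (Fin s) 𝔽 := fun i b =>
    ∑ l ∈ Finset.range ((i : ℕ) + 1), hessFun (m + s) h l (m + b)
  let tail : Matrix (Fin s) (Fin s) 𝔽 := fun a b =>
    hessFun (m + s) h (m + a) (m + b) - (R * R') a b
  have hR : ∀ {κ : Type} [Fintype κ] (X : Matrix (Fin m) κ 𝔽) (a : Fin s) (b : κ),
      (R * X) a b = if hh : (a : ℕ) = 0 ∧ 0 < m then X ⟨m - 1, by omega⟩ b else 0 := by
    intro κ _ X a b
    rw [Matrix.mul_apply]
    by_cases hh : (a : ℕ) = 0 ∧ 0 < m
    · rw [dif_pos hh, Finset.sum_eq_single (⟨m - 1, by omega⟩ : Fin m)]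
      · simp [R, hh.1, show m - 1 + 1 = m by omega]
      · intro l _ hl
        have h2 : ¬ (l : ℕ) + 1 = m := fun e => hl (Fin.ext (by simp; omega))
        simp [R, h2]
      · intro h; exact absurd (Finset.mem_univ _) h
    · rw [dif_neg hh]
      refine Finset.sum_eq_zero fun l _ => ?_
      have : ¬ ((a : ℕ) = 0 ∧ (l : ℕ) + 1 = m) := fun e => hh ⟨e.1, by omega⟩
      simp [R, this]
  have hmain : fromBlocks (bidiag m) 0 R tail * fromBlocks Um R' 0 1 = G := by
    rw [fromBlocks_multiply]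
    ext (i | a) (j | b)
    · simp only [Matrix.zero_mul, fromBlocks_apply₁₁, Matrix.mul_zero, add_zero]
      rw [bidiag_mul, hG]
      simp only [Sum.elim_inl]
      rw [← upFun_add h (i := (i : ℕ)) (j := (j : ℕ)) (K := m + s) (by omega)]
      by_cases h0 : 0 < (i : ℕ) <;> simp [h0, Um]
    · simp only [fromBlocks_apply₁₂, Matrix.zero_mul, add_zero]
      rw [bidiag_mul, hG]
      simp only [Sum.elim_inl, Sum.elim_inr, R']
      by_cases h0 : 0 < (i : ℕ)
      · simp only [dif_pos h0, show (i : ℕ) - 1 + 1 = i by omega, Finset.sum_range_succ]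
        rw [add_right_comm, CharTwo.add_self_eq_zero, zero_add]
      · simp [show (i : ℕ) = 0 by omega]
    · simp only [fromBlocks_apply₂₁, Matrix.mul_zero, add_zero]
      rw [hR, hG]
      simp only [Sum.elim_inl, Sum.elim_inr]
      rw [hessFun_below h j.2 (by omega)]
      by_cases hh : (a : ℕ) = 0 ∧ 0 < m
      · rw [dif_pos hh]
        simp [Um, upFun_last j.2, hh.1]
      · rw [dif_neg hh, if_neg (fun e => hh ⟨e.1, by omega⟩)]
    · simp only [fromBlocks_apply₂₂, Matrix.mul_one, Matrix.add_apply]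
      rw [hG]
      simp [tail]
  let d : Fact m s G :=
    { Lm := bidiag m, Um := Um, R := R, R' := R', tail := tail
      low := ⟨fun i => by simp [bidiag], fun i j hij => by
        have h1 : i ≠ j := ne_of_lt hij
        have h2 : ¬ (j : ℕ) + 1 = i := by have : (i : ℕ) < j := hij; omega
        simp [bidiag, h1, h2]⟩
      up := ⟨fun i => by simp [Um, upFun], fun i j hij => by
        have : (j : ℕ) < i := hij
        simp only [Um, upFun]
        (repeat' split) <;> first | omega | rfl⟩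
      lowAdj := fun i j hij => by
        have h1 : i ≠ j := fun e => by rw [e] at hij; omega
        simp [bidiag, h1, hij]
      upAdj := fun i j hij => by
        simp only [Um, upFun]
        (repeat' split) <;> first | omega | decide
      sim := ⟨1, by simp, by rw [hmain]; simp⟩ }
  refine ⟨d, ?_, ?_⟩
  · have h1 : (bidiag m).det = 1 := by
      rw [det_of_lowerTriangular _ (fun i j hij => d.low.2 i j hij)]
      exact Finset.prod_eq_one fun i _ => d.low.1 i
    have h2 : Um.det = 1 := by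
      rw [det_of_upperTriangular (fun i j hij => d.up.2 i j hij)]
      exact Finset.prod_eq_one fun i _ => d.up.1 i
    change tail.det = G.det
    rw [← hmain, det_mul, det_fromBlocks_zero₁₂, det_fromBlocks_zero₂₁, h1, h2, det_one]
    simp
  · intro a b ha
    change hessFun (m + s) h (m + a) (m + b) - (R * R') a b = _
    rw [hR, dif_neg (by omega), sub_zero]

/-- Multiplication by the root, in Hessenberg form. -/
theorem exists_hess_form (f : 𝔽[X]) (hf : f.Monic) (hdeg : 2 ≤ f.natDegree) :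
    ∃ h : ℕ → ZMod 2, Sim (Algebra.leftMulMatrix (AdjoinRoot.powerBasis' hf).basis
        (AdjoinRoot.root f))
      (Matrix.of fun i j => hessFun (AdjoinRoot.powerBasis' hf).dim h i j) := by
  set pb := AdjoinRoot.powerBasis' hf with hpb
  set r := AdjoinRoot.root f with hr
  have hgen : pb.gen = r := AdjoinRoot.powerBasis'_gen hf
  set k := pb.dim with hk'
  have hk : 2 ≤ k := by rw [hk', hpb, AdjoinRoot.powerBasis'_dim]; exact hdeg
  let w : ℕ → AdjoinRoot f := fun j =>
    r ^ j + (if 1 ≤ j then r ^ (j - 1) else 0) + (if 2 ≤ j then 1 else 0)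
  haveI : CharP (AdjoinRoot f) 2 := by
    haveI : Nontrivial (AdjoinRoot f) :=
      AdjoinRoot.nontrivial f (by
        rw [degree_eq_natDegree hf.ne_zero]
        exact_mod_cast (show f.natDegree ≠ 0 by omega))
    exact (RingHom.charP_iff_charP (AdjoinRoot.of f) 2).1 inferInstance
  have hw : ∀ j, r * w j = w (j + 1) + (if j = 0 ∨ j = 1 then w 0 else w 1) := by
    intro j
    rcases j with _ | _ | j
    · simp [w, add_assoc, CharTwo.add_self_eq_zero]
    · simp [w, mul_add, ← pow_succ', add_assoc, CharTwo.add_self_eq_zero]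
      ring
    · simp only [w, show (j + 1 + 1 = 0 ∨ j + 1 + 1 = 1) = False by simp, if_false,
        show 1 ≤ j + 1 + 1 + 1 by omega, show 2 ≤ j + 1 + 1 + 1 by omega, show 1 ≤ j + 1 + 1 by omega,
        show 2 ≤ j + 1 + 1 by omega, if_true, show ¬ 2 ≤ 1 by omega, le_refl, Nat.add_sub_cancel,
        Nat.sub_self, pow_zero, add_zero, mul_add, mul_one, ← pow_succ', pow_one]
      have h2 : (1 : AdjoinRoot f) + 1 = 0 := CharTwo.add_self_eq_zero 1
      linear_combination -h2
  let P : Matrix (Fin k) (Fin k) 𝔽 := fun i j => pb.basis.repr (w j) i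
  have hrp : ∀ (n : ℕ) (hn : n < k) (i : Fin k), pb.basis.repr (r ^ n) i =
      if (i : ℕ) = n then 1 else 0 := by
    intro n hn i
    have e : r ^ n = pb.basis ⟨n, hn⟩ := by rw [pb.basis_eq_pow, hgen]
    rw [e, pb.basis.repr_self, Finsupp.single_apply]
    simp [Fin.ext_iff, eq_comm]
  have hPtri : ∀ i j : Fin k, (j : ℕ) ≤ i → P i j = if i = j then 1 else 0 := by
    intro i j hij
    simp only [P, w, map_add, Finsupp.add_apply]
    rw [hrp j j.2 i]
    have e1 : pb.basis.repr (if 1 ≤ (j : ℕ) then r ^ ((j : ℕ) - 1) else 0) i = 0 := by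
      split_ifs with h1
      · rw [hrp _ (by omega) i, if_neg (by omega)]
      · simp
    have e2 : pb.basis.repr (if 2 ≤ (j : ℕ) then (1 : AdjoinRoot f) else 0) i = 0 := by
      split_ifs with h1
      · rw [← pow_zero r, hrp 0 (by omega) i, if_neg (by omega)]
      · simp
    rw [e1, e2, add_zero, add_zero]
    simp [Fin.ext_iff]
  have hP : IsUnit P.det := by
    rw [det_of_upperTriangular (fun i j hij => by
      rw [hPtri i j (le_of_lt hij), if_neg (ne_of_gt (show j < i from hij))])]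
    simp [hPtri]
  set C := Algebra.leftMulMatrix pb.basis r with hC
  let z : Fin k → 𝔽 := P⁻¹ *ᵥ fun i => pb.basis.repr (r * w (k - 1)) i
  let h : ℕ → ZMod 2 := fun i => if hi : i < k then z ⟨i, hi⟩ else 0
  refine ⟨h, P, hP, ?_⟩
  ext i j
  have hCP : (C * P) i j = pb.basis.repr (r * w j) i := by
    rw [← Algebra.leftMulMatrix_mulVec_repr]
    rfl
  rw [hCP, Matrix.mul_apply]
  by_cases hl : (j : ℕ) + 1 = k
  · have hz : P *ᵥ z = fun i => pb.basis.repr (r * w (k - 1)) i := by
      simp only [z, mulVec_mulVec, mul_nonsing_inv _ hP, one_mulVec]; rfl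
    rw [show (j : ℕ) = k - 1 by omega, ← congrFun hz i]
    simp only [mulVec, dotProduct, Matrix.of_apply, hessFun, ← hk', hl, if_true, h]
    exact Finset.sum_congr rfl fun x _ => by rw [dif_pos (show (x : ℕ) < k from x.2)]
  · obtain ⟨y, hy⟩ : ∃ y : Fin k, (y : ℕ) = if (j : ℕ) = 0 ∨ (j : ℕ) = 1 then 0 else 1 :=
      ⟨⟨if (j : ℕ) = 0 ∨ (j : ℕ) = 1 then 0 else 1, by split <;> omega⟩, rfl⟩
    rw [hw, Finset.sum_eq_add (a := (⟨j + 1, by omega⟩ : Fin k)) (b := y) (fun e => by
      have := congrArg Fin.val e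
      simp only [hy] at this
      split_ifs at this <;> omega)]
    · simp only [P, Matrix.of_apply, map_add, Finsupp.add_apply, hessFun, ← hk', hl, if_false, hy]
      rcases (by omega : (j : ℕ) = 0 ∨ (j : ℕ) = 1 ∨ 2 ≤ (j : ℕ)) with h0 | h0 | h0
      · simp [h0]
      · simp [h0]
      · simp [show ¬ (j : ℕ) = 0 by omega, show ¬ (j : ℕ) = 1 by omega]
    · intro l _ hl'
      have h1 : (l : ℕ) ≠ (j : ℕ) + 1 := fun e => hl'.1 (Fin.ext e)
      have h2 : (l : ℕ) ≠ (y : ℕ) := fun e => hl'.2 (Fin.ext e)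
      rw [hy] at h2
      simp only [Matrix.of_apply, hessFun, ← hk', hl, if_false]
      split_ifs at h2 ⊢ <;> first | omega | simp
    · intro h; exact absurd (Finset.mem_univ _) h
    · intro h; exact absurd (Finset.mem_univ _) h

end Cfsg.Agent.SLComm
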